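import Mathlib
import Cfsg.Agent.Lib.Helper32.D8Stmt
import Cfsg.Agent.Lib.Helper4.MixTools

/-! S3716 piece TI: `T` is a TI-subgroup with normalizer `N`. -/

set_option autoImplicit false
universe u

namespace Cfsg.Agent.Lib.Helper70.D8TI

open Cfsg Cfsg.Agent.Lib.Helper32.D8Stmt

/-- an element of `N` of order dividing 9 lies in `T` (`T` is the normal Sylow 3-subgroup). -/
theorem mem_T_of_pow9 {G : Type u} [Group G] [Finite G] {T N : Subgroup G} {x y a b w : G}
    (hC : Cfg T N x y a b w) {u : G} (hu : u ∈ N) (hu9 : u ^ 9 = 1) : u ∈ T := by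
  have huN : Subgroup.zpowers u ≤ Subgroup.normalizer (T : Set G) := by
    rw [Subgroup.zpowers_le, Subgroup.mem_normalizer_iff]
    intro h
    constructor
    · intro hh; exact hC.nT u hu h hh
    · intro hh
      have := hC.nT u⁻¹ (inv_mem hu) _ hh
      have e : u⁻¹ * (u * h * u⁻¹) * u⁻¹⁻¹ = h := by group
      rw [e] at this; exact this
  have h1 := Cfsg.Agent.Lib.Helper4.MixTools.card_sup_dvd T (Subgroup.zpowers u) huN
  rw [hC.cardT, Nat.card_zpowers] at h1
  have h2 : Nat.card (T ⊔ Subgroup.zpowers u : Subgroup G) ∣ 81 :=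
    h1.trans (Nat.mul_dvd_mul_left 9 (orderOf_dvd_of_pow_eq_one hu9))
  have hKN : T ⊔ Subgroup.zpowers u ≤ N := sup_le hC.TN (Subgroup.zpowers_le.2 hu)
  have h3 : Nat.card (T ⊔ Subgroup.zpowers u : Subgroup G) ∣ 72 := by
    have := Subgroup.card_dvd_of_le hKN
    rw [hC.cardN] at this; exact this
  have h4 : Nat.card (T ⊔ Subgroup.zpowers u : Subgroup G) ≤ 9 :=
    Nat.le_of_dvd (by norm_num) (Nat.dvd_gcd h2 h3)
  have h5 : T = T ⊔ Subgroup.zpowers u :=
    Subgroup.eq_of_le_of_card_ge le_sup_left (by rw [hC.cardT]; exact h4)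
  rw [h5]
  exact Subgroup.mem_sup_right (Subgroup.mem_zpowers u)

/-- `T` is abelian. -/
theorem T_comm {G : Type u} [Group G] [Finite G] {T N : Subgroup G} {x y a b w : G}
    (hC : Cfg T N x y a b w) : ∀ s ∈ T, ∀ t ∈ T, s * t = t * s := by
  intro s hs t ht
  have : Fact (Nat.Prime 3) := ⟨Nat.prime_three⟩
  have h0 := IsPGroup.isMulCommutative_of_card_eq_prime_sq (p := 3) (G := T)
    (by rw [hC.cardT]; norm_num)
  have h := h0.is_comm.comm (⟨s, hs⟩ : T) ⟨t, ht⟩
  exact congrArg Subtype.val h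

/-- elements of `T` have order dividing 9. -/
theorem T_pow9 {G : Type u} [Group G] [Finite G] {T N : Subgroup G} {x y a b w : G}
    (hC : Cfg T N x y a b w) : ∀ s ∈ T, s ^ 9 = 1 := by
  intro s hs
  have h : (⟨s, hs⟩ : T) ^ Nat.card T = 1 := pow_card_eq_one'
  rw [hC.cardT] at h
  have := congrArg Subtype.val h
  simpa using this

theorem main : Cfsg.Agent.Lib.Helper32.D8Stmt.TI.{u} := by
  intro G _ _ T N x y a b w hC g t ht ht1 hgt
  apply hC.norm
  intro s hs
  have hne : g * t * g⁻¹ ≠ 1 := by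
    intro h
    apply ht1
    have e : t = g⁻¹ * (g * t * g⁻¹) * g := by group
    rw [e, h]; group
  have hcomm : (g * s * g⁻¹) * (g * t * g⁻¹) = (g * t * g⁻¹) * (g * s * g⁻¹) := by
    have e1 : (g * s * g⁻¹) * (g * t * g⁻¹) = g * (s * t) * g⁻¹ := by group
    have e2 : (g * t * g⁻¹) * (g * s * g⁻¹) = g * (t * s) * g⁻¹ := by group
    rw [e1, e2, T_comm hC s hs t ht]
  have huN : g * s * g⁻¹ ∈ N := hC.loc _ hgt hne _ hcomm
  have hu9 : (g * s * g⁻¹) ^ 9 = 1 := by
    rw [conj_pow, T_pow9 hC s hs]; group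
  exact mem_T_of_pow9 hC huN hu9

end Cfsg.Agent.Lib.Helper70.D8TI
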