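import Mathlib
import Cfsg.Agent.Lib.Helper32.D8Stmt
import Cfsg.Agent.Lib.Helper70.D8TI

/-! S3716 piece NOFUS: `a` and `w` are not conjugate in `G`. -/

set_option autoImplicit false
universe u

namespace Cfsg.Agent.Lib.Helper70.D8NOFUS

open Cfsg Cfsg.Agent.Lib.Helper32.D8Stmt

/-- Conjugate Sylow subgroups: membership. -/
theorem sylow_conj_mem {H : Type*} [Group H] {p : ℕ} {P S : Sylow p H} {g : H}
    (hg : g • P = S) {x : H} (hx : x ∈ (S : Subgroup H)) : g⁻¹ * x * g ∈ (P : Subgroup H) := by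
  rw [← hg] at hx
  have h1 : x ∈ (g • P : Sylow p H).toSubgroup := hx
  rw [Sylow.coe_subgroup_smul, Subgroup.mem_pointwise_smul_iff_inv_smul_mem] at h1
  have h2 : g⁻¹ * x * g ∈ (P : Subgroup H) := by simpa [MulAut.smul_def] using h1
  exact h2

theorem isPGroup_zpowers {H : Type*} [Group H] (u : H) (hu : u ^ 3 = 1) :
    IsPGroup 3 (Subgroup.zpowers u) := by
  rintro ⟨h, hh⟩
  obtain ⟨n, rfl⟩ := Subgroup.mem_zpowers_iff.1 hh
  refine ⟨1, ?_⟩
  apply Subtype.ext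
  simp only [pow_one, Subgroup.coe_pow, Subgroup.coe_one]
  rw [← zpow_natCast, ← zpow_mul, mul_comm, zpow_mul, zpow_natCast, hu, one_zpow]

/-- a 3-subgroup of `G` meeting `T` nontrivially lies in `T`. -/
theorem pgroup_le_T {G : Type u} [Group G] [Finite G] {T N : Subgroup G} {x y a b w : G}
    (hC : Cfg T N x y a b w) {P : Subgroup G} (hP : IsPGroup 3 P) (t : G) (htT : t ∈ T)
    (ht1 : t ≠ 1) (htP : t ∈ P) : P ≤ T := by
  have : Fact (Nat.Prime 3) := ⟨Nat.prime_three⟩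
  obtain ⟨k, hk⟩ := IsPGroup.iff_card.1 hP
  have hdvd : Nat.card P ∣ Nat.card G := Subgroup.card_subgroup_dvd_card P
  have hk2 : k ≤ 2 := by
    by_contra h
    rw [not_le] at h
    apply hC.syl
    have h3 : 3 ^ 3 ∣ 3 ^ k := pow_dvd_pow 3 h
    rw [← hk] at h3
    exact (show (27 : ℕ) = 3 ^ 3 by norm_num) ▸ h3.trans hdvd
  have hcomm : ∀ u ∈ P, ∀ v ∈ P, u * v = v * u := by
    interval_cases k
    · intro u hu v hv
      have hP1 : P = ⊥ := Subgroup.card_eq_one.1 (by rw [hk]; norm_num)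
      rw [hP1, Subgroup.mem_bot] at hu hv
      rw [hu, hv]
    · intro u hu v hv
      have hcyc : IsCyclic P := isCyclic_of_prime_card (p := 3) (by rw [hk]; norm_num)
      have := (@IsCyclic.commGroup ↥P _ hcyc).mul_comm ⟨u, hu⟩ ⟨v, hv⟩
      exact congrArg Subtype.val this
    · intro u hu v hv
      have h0 := IsPGroup.isMulCommutative_of_card_eq_prime_sq (p := 3) (G := P) (by rw [hk])
      have h := h0.is_comm.comm (⟨u, hu⟩ : P) ⟨v, hv⟩
      exact congrArg Subtype.val h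
  intro u hu
  have huN : u ∈ N := hC.loc t htT ht1 u (hcomm u hu t htP)
  have hu9 : u ^ 9 = 1 := by
    have h1 : orderOf u ∣ Nat.card P := Subgroup.orderOf_dvd_natCard P hu
    have h2 : Nat.card P ∣ 9 := by
      rw [hk]; exact (pow_dvd_pow 3 hk2).trans (by norm_num)
    exact orderOf_dvd_iff_pow_eq_one.1 (h1.trans h2)
  exact Cfsg.Agent.Lib.Helper70.D8TI.mem_T_of_pow9 hC huN hu9

theorem main (hNF : Cfsg.Agent.Lib.Helper32.D8Stmt.NF.{u}) :
    Cfsg.Agent.Lib.Helper32.D8Stmt.NOFUS.{u} := by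
  intro G _ _ T N x y a b w hC hconj
  obtain ⟨g, hg⟩ := isConj_iff.1 hconj
  have : Fact (Nat.Prime 3) := ⟨Nat.prime_three⟩
  have hwinv : w⁻¹ = w := by
    have := hC.w2
    rw [pow_two] at this
    exact inv_eq_of_mul_eq_one_left this
  have hy1 : y ≠ 1 := by
    intro h; exact hC.yx (h ▸ one_mem _)
  have hxy1 : x * y ≠ 1 := by
    intro h
    apply hC.yx
    have e : x⁻¹ = y := inv_eq_of_mul_eq_one_right h
    rw [← e]; exact inv_mem (Subgroup.mem_zpowers x)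
  have h1 : w * x = y * w := by rw [← hC.wx]; group
  have hwy : w * y * w⁻¹ = x := by
    have e : w * y * w⁻¹ = w * (w * x * w⁻¹) * w⁻¹ := by rw [hC.wx]
    rw [e, hwinv]
    calc w * (w * x * w) * w = (w * w) * x * (w * w) := by simp only [mul_assoc]
      _ = x := by rw [← pow_two, hC.w2]; simp
  have h2 : w * y = x * w := by
    calc w * y = (w * y * w⁻¹) * w := by group
      _ = x * w := by rw [hwy]
  have hwxy : w * (x * y) = (x * y) * w := by
    calc w * (x * y) = (w * x) * y := by rw [mul_assoc]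
      _ = y * (w * y) := by rw [h1, mul_assoc]
      _ = y * x * w := by rw [h2, mul_assoc]
      _ = x * y * w := by rw [hC.xy]
  have hu1C : x * y ∈ Subgroup.centralizer ({w} : Set G) := by
    rw [Subgroup.mem_centralizer_iff]
    intro h hh
    rw [Set.mem_singleton_iff] at hh
    rw [hh]; exact hwxy
  have hu2C : g * y * g⁻¹ ∈ Subgroup.centralizer ({w} : Set G) := by
    rw [Subgroup.mem_centralizer_iff]
    intro h hh
    rw [Set.mem_singleton_iff] at hh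
    rw [hh, ← hg]
    have e1 : (g * a * g⁻¹) * (g * y * g⁻¹) = g * (a * y) * g⁻¹ := by group
    have e2 : (g * y * g⁻¹) * (g * a * g⁻¹) = g * (y * a) * g⁻¹ := by group
    rw [e1, e2, hC.ay]
  have hU1 : (⟨x * y, hu1C⟩ : Subgroup.centralizer ({w} : Set G)) ^ 3 = 1 := by
    apply Subtype.ext
    simp only [Subgroup.coe_pow, Subgroup.coe_one]
    rw [(show Commute x y from hC.xy).mul_pow, hC.x3, hC.y3, one_mul]
  have hU2 : (⟨g * y * g⁻¹, hu2C⟩ : Subgroup.centralizer ({w} : Set G)) ^ 3 = 1 := by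
    apply Subtype.ext
    simp only [Subgroup.coe_pow, Subgroup.coe_one]
    rw [conj_pow, hC.y3]; group
  obtain ⟨Q1, hQ1⟩ := (isPGroup_zpowers _ hU1).exists_le_sylow
  obtain ⟨Q2, hQ2⟩ := (isPGroup_zpowers _ hU2).exists_le_sylow
  obtain ⟨c, hc⟩ := MulAction.exists_smul_eq (Subgroup.centralizer ({w} : Set G)) Q1 Q2
  have hv := sylow_conj_mem hc (hQ2 (Subgroup.mem_zpowers _))
  have hu1Q := hQ1 (Subgroup.mem_zpowers (⟨x * y, hu1C⟩ : Subgroup.centralizer ({w} : Set G)))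
  have hP1 : IsPGroup 3 ((Q1 : Subgroup (Subgroup.centralizer ({w} : Set G))).map
      (Subgroup.subtype _)) := Q1.isPGroup'.map _
  have hP1T := pgroup_le_T hC hP1 (x * y) (mul_mem hC.xT hC.yT) hxy1 ⟨_, hu1Q, rfl⟩
  have hvT : (c : G)⁻¹ * (g * y * g⁻¹) * (c : G) ∈ T := hP1T ⟨_, hv, rfl⟩
  have hh : ((c : G)⁻¹ * g) * y * ((c : G)⁻¹ * g)⁻¹ ∈ T := by
    have e : ((c : G)⁻¹ * g) * y * ((c : G)⁻¹ * g)⁻¹ = (c : G)⁻¹ * (g * y * g⁻¹) * (c : G) := by
      group
    rw [e]; exact hvT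
  have hhN : (c : G)⁻¹ * g ∈ N :=
    Cfsg.Agent.Lib.Helper70.D8TI.main hC _ y hC.yT hy1 hh
  have hcw : w * (c : G) = (c : G) * w := by
    have := c.2
    rw [Subgroup.mem_centralizer_iff] at this
    exact this w rfl
  have hcw' : (c : G)⁻¹ * w = w * (c : G)⁻¹ := by
    calc (c : G)⁻¹ * w = (c : G)⁻¹ * (w * (c : G)) * (c : G)⁻¹ := by group
      _ = (c : G)⁻¹ * ((c : G) * w) * (c : G)⁻¹ := by rw [hcw]
      _ = w * (c : G)⁻¹ := by group
  have hha : ((c : G)⁻¹ * g) * a = w * ((c : G)⁻¹ * g) := by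
    have e1 : g * a = w * g := by rw [← hg]; group
    calc (c : G)⁻¹ * g * a = (c : G)⁻¹ * (g * a) := by rw [mul_assoc]
      _ = (c : G)⁻¹ * (w * g) := by rw [e1]
      _ = ((c : G)⁻¹ * w) * g := by rw [mul_assoc]
      _ = (w * (c : G)⁻¹) * g := by rw [hcw']
      _ = w * ((c : G)⁻¹ * g) := by rw [mul_assoc]
  -- normal form contradiction
  obtain ⟨-, hNF2, hNF3, hNF4, -, -, -⟩ := hNF hC
  obtain ⟨i, j, k, l, m, hnf⟩ := (hNF2 _).1 hhN
  have e1 := hNF4 i j k l m 0 0 1 0 0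
  have e2 := hNF4 0 0 0 0 1 i j k l m
  have ha' : x ^ 0 * y ^ 0 * a ^ 1 * b ^ 0 * w ^ 0 = a := by simp
  have hw' : x ^ 0 * y ^ 0 * a ^ 0 * b ^ 0 * w ^ 1 = w := by simp
  rw [ha', ← hnf] at e1
  rw [hw', ← hnf] at e2
  have hEq := e1.symm.trans (hha.trans e2)
  rw [if_neg (by norm_num : ¬ (1 % 2 = 0))] at hEq
  rcases Nat.mod_two_eq_zero_or_one m with hm | hm
  · rw [if_pos hm] at hEq
    have := (hNF3 _ _ _ _ _ _ _ _ _ _ hEq).2.2.2.2
    omega
  · rw [if_neg (by omega)] at hEq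
    have := (hNF3 _ _ _ _ _ _ _ _ _ _ hEq).2.2.2.2
    omega

end Cfsg.Agent.Lib.Helper70.D8NOFUS
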