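import Mathlib
import Cfsg.Agent.Lib.Helper70.HallHigman

set_option autoImplicit false

namespace Cfsg.Agent.Lib.Helper70.HallHigman2

open Cfsg
open scoped commutatorElement

/-- Variant of `HallHigman.mem_pCore_iff` with the self-centralizing hypothesis on `O_p(H)`. -/
theorem mem_pCore_iff_of_centralizer_le {H : Type*} [Group H] [Finite H] (p : ℕ) [Fact p.Prime]
    (hcent : Subgroup.centralizer ((pCore p H : Subgroup H) : Set H) ≤ pCore p H) (h : H) :
    (MulAut.conjNormal h : MulAut (pCore p H)) ∈ Cfsg.Agent.S4189.frattiniKer (pCore p H) ↔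
      h ∈ pCore p H := by
  have hp : p.Prime := Fact.out
  have hPp : IsPGroup p (pCore p H) := Helper78.Fitting.pCore_isPGroup p
  constructor
  · intro hh
    have hKn : ((Cfsg.Agent.S4189.frattiniKer (pCore p H)).comap
        (MulAut.conjNormal : H →* MulAut (pCore p H))).Normal :=
      (HallHigman.frattiniKer_normal _).comap _
    have hKp : IsPGroup p ((Cfsg.Agent.S4189.frattiniKer (pCore p H)).comap
        (MulAut.conjNormal : H →* MulAut (pCore p H))) := by
      rintro ⟨c, hc⟩
      have ho : orderOf c ≠ 0 := (orderOf_pos c).ne'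
      obtain ⟨a, ha⟩ : ∃ a, a = (orderOf c).factorization p := ⟨_, rfl⟩
      have hd_mem : c ^ p ^ a ∈ (Cfsg.Agent.S4189.frattiniKer (pCore p H)).comap
          (MulAut.conjNormal : H →* MulAut (pCore p H)) := Subgroup.pow_mem _ hc _
      have hd_ord : (orderOf (c ^ p ^ a)).Coprime p := by
        rw [orderOf_pow' c (pow_pos hp.pos a).ne',
          Nat.gcd_eq_right (ha ▸ Nat.ordProj_dvd (orderOf c) p), ha]
        exact (Nat.coprime_ordCompl hp ho).symm
      have hα : (MulAut.conjNormal (c ^ p ^ a) : MulAut (pCore p H)) = 1 := by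
        obtain ⟨k, hk⟩ := HallHigman.isPGroup_frattiniKer hPp ⟨_, hd_mem⟩
        have h1 : (MulAut.conjNormal (c ^ p ^ a) : MulAut (pCore p H)) ^ p ^ k = 1 := by
          simpa using congrArg Subtype.val hk
        have h2 : (MulAut.conjNormal (c ^ p ^ a) : MulAut (pCore p H)) ^ orderOf (c ^ p ^ a)
            = 1 := by
          rw [← map_pow, pow_orderOf_eq_one, map_one]
        have h3 := orderOf_dvd_of_pow_eq_one h1
        have h4 := orderOf_dvd_of_pow_eq_one h2
        have h5 : orderOf (MulAut.conjNormal (c ^ p ^ a) : MulAut (pCore p H)) = 1 := by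
          have h6 : (orderOf (MulAut.conjNormal (c ^ p ^ a) : MulAut (pCore p H))).Coprime
              (p ^ k) := Nat.Coprime.pow_right k (Nat.Coprime.coprime_dvd_left h4 hd_ord)
          exact Nat.Coprime.eq_one_of_dvd h6 h3
        exact orderOf_eq_one_iff.1 h5
      have hd_cent : c ^ p ^ a ∈ Subgroup.centralizer ((pCore p H : Subgroup H) : Set H) := by
        rw [Subgroup.mem_centralizer_iff]
        intro y hy
        have h1 := congrArg (fun β : MulAut (pCore p H) => ((β ⟨y, hy⟩ : pCore p H) : H)) hα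
        simp only [MulAut.conjNormal_apply, MulAut.one_apply] at h1
        calc y * c ^ p ^ a = (c ^ p ^ a * y * (c ^ p ^ a)⁻¹) * c ^ p ^ a := by rw [h1]
          _ = c ^ p ^ a * y := by group
      have hd_P : c ^ p ^ a ∈ pCore p H := hcent hd_cent
      obtain ⟨k, hk⟩ := hPp ⟨_, hd_P⟩
      refine ⟨a + k, ?_⟩
      apply Subtype.ext
      have := congrArg Subtype.val hk
      simpa [pow_add, pow_mul] using this
    exact Helper78.Fitting.le_pCore hKn hKp hh
  · intro hh
    show ∀ y : pCore p H, (MulAut.conjNormal h : MulAut (pCore p H)) y * y⁻¹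
      ∈ frattini (pCore p H)
    intro y
    have h1 : (MulAut.conjNormal h : MulAut (pCore p H)) y * y⁻¹
        = ⁅(⟨h, hh⟩ : pCore p H), y⁆ := by
      apply Subtype.ext
      simp [commutatorElement_def, MulAut.conjNormal_apply]
    rw [h1]
    exact FrattiniQuot.commutator_le_frattini hPp
      (Subgroup.commutator_mem_commutator (Subgroup.mem_top _) (Subgroup.mem_top _))

section Act

variable {H : Type*} [Group H] (P : Subgroup H) [P.Normal]

/-- The action of `h` by conjugation on the Frattini quotient of a normal subgroup `P`. -/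
noncomputable def act (h : H) : (↥P ⧸ frattini ↥P) →* (↥P ⧸ frattini ↥P) :=
  QuotientGroup.map (frattini ↥P) (frattini ↥P) (MulAut.conjNormal h : MulAut ↥P).toMonoidHom
    (fun u hu => (Cfsg.Agent.S4189.char_mem (frattini ↥P) (MulAut.conjNormal h) u).2 hu)

theorem act_mk (h : H) (u : ↥P) :
    act P h (QuotientGroup.mk u) = QuotientGroup.mk ((MulAut.conjNormal h : MulAut ↥P) u) := rfl

theorem act_mul (h h' : H) (v : ↥P ⧸ frattini ↥P) : act P (h * h') v = act P h (act P h' v) := by
  obtain ⟨u, rfl⟩ := QuotientGroup.mk_surjective v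
  rw [act_mk, act_mk, act_mk, map_mul, MulAut.mul_apply]

theorem act_eq_self_iff (h : H) :
    (∀ v : ↥P ⧸ frattini ↥P, act P h v = v) ↔
      (MulAut.conjNormal h : MulAut ↥P) ∈ Cfsg.Agent.S4189.frattiniKer ↥P := by
  constructor
  · intro hv u
    have := hv (QuotientGroup.mk u)
    rw [act_mk] at this
    have h2 := QuotientGroup.eq.1 this.symm
    -- u⁻¹ * β u ∈ Φ, conjugate to β u * u⁻¹
    have h3 := (inferInstance : (frattini ↥P).Normal).conj_mem _ h2 u
    simpa [mul_assoc] using h3
  · intro hh v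
    obtain ⟨u, rfl⟩ := QuotientGroup.mk_surjective v
    rw [act_mk]
    symm
    apply QuotientGroup.eq.2
    have h2 := hh u
    have h3 := (inferInstance : (frattini ↥P).Normal).conj_mem _ h2 u⁻¹
    simpa [mul_assoc] using h3

end Act

/-- The `A₄`-lemma: an elementary abelian `3`-group `V` with commuting involutory operators
`B, B', B'' = B B'` permuted cyclically by `X`, where `1 + X + X²` annihilates `V`,
is centralized by `B`. -/
theorem a4_lemma {V : Type*} [CommGroup V] (hV : ∀ v : V, v ^ 3 = 1) (B B' B'' X : V →* V)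
    (hB : ∀ v, B (B v) = v) (hB' : ∀ v, B' (B' v) = v)
    (hcomm : ∀ v, B (B' v) = B' (B v)) (hB'' : ∀ v, B'' v = B (B' v))
    (h1 : ∀ v, B' (X v) = X (B v)) (h2 : ∀ v, B' (X (X v)) = X (X (B'' v)))
    (h3 : ∀ v, B'' (X v) = X (B' v)) (h4 : ∀ v, B'' (X (X v)) = X (X (B v)))
    (hR : ∀ v, X v * X (X v) * v = 1) (w : V) : B w = w := by
  have sq_one : ∀ u : V, u * u = 1 → u = 1 := by
    intro u hu
    have := hV u
    rw [pow_succ, pow_two, hu, one_mul] at this
    exact this
  -- eigenvectors of type (-, +)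
  have caseA : ∀ u : V, B u = u⁻¹ → B' u = u → u = 1 := by
    intro u hu hu'
    have e := hR u
    have e' := congrArg B' e
    rw [map_mul, map_mul, h1, h2, hB'', hu', hu, map_one] at e'
    simp only [map_inv] at e'
    apply sq_one
    calc u * u = (X u * X (X u) * u) * ((X u)⁻¹ * (X (X u))⁻¹ * u) := by
          rw [mul_mul_mul_comm, mul_mul_mul_comm (X u), mul_inv_cancel, mul_inv_cancel, one_mul,
            one_mul]
      _ = 1 := by rw [e, e', one_mul]
  -- eigenvectors of type (-, -)
  have caseB : ∀ u : V, B u = u⁻¹ → B' u = u⁻¹ → u = 1 := by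
    intro u hu hu'
    have e := hR u
    have e' := congrArg B'' e
    have hu'' : B'' u = u := by rw [hB'', hu', map_inv, hu, inv_inv]
    rw [map_mul, map_mul, h3, h4, hu'', hu', hu, map_one] at e'
    simp only [map_inv] at e'
    apply sq_one
    calc u * u = (X u * X (X u) * u) * ((X u)⁻¹ * (X (X u))⁻¹ * u) := by
          rw [mul_mul_mul_comm, mul_mul_mul_comm (X u), mul_inv_cancel, mul_inv_cancel, one_mul,
            one_mul]
      _ = 1 := by rw [e, e', one_mul]
  -- u₀ = B w * w⁻¹ is inverted by B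
  obtain ⟨u₀, hu₀⟩ : ∃ u₀ : V, u₀ = B w * w⁻¹ := ⟨_, rfl⟩
  have hu0 : B u₀ = u₀⁻¹ := by
    rw [hu₀, map_mul, hB, map_inv, mul_inv_rev, inv_inv]
  have hplus : u₀ * B' u₀ = 1 := by
    apply caseA
    · rw [map_mul, hcomm, hu0, map_inv, mul_inv]
    · rw [map_mul, hB', mul_comm]
  have hminus : u₀ * (B' u₀)⁻¹ = 1 := by
    apply caseB
    · rw [map_mul, map_inv, hcomm, hu0, map_inv, mul_inv]
    · rw [map_mul, map_inv, hB', mul_inv, inv_inv, mul_comm]
  have h0 : u₀ = 1 := by
    apply sq_one
    calc u₀ * u₀ = (u₀ * B' u₀) * (u₀ * (B' u₀)⁻¹) := by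
          rw [mul_mul_mul_comm, mul_inv_cancel, mul_one]
      _ = 1 := by rw [hplus, hminus, one_mul]
  rw [hu₀] at h0
  exact mul_inv_eq_one.1 h0

end Cfsg.Agent.Lib.Helper70.HallHigman2
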