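import Mathlib
import Cfsg.Agent.Lib.Helper25.ACStmt

/-!
# S3912 / SPLITA
-/

set_option autoImplicit false

universe u

namespace Cfsg.Agent.Lib.Helper70.ACSPLITA

open Cfsg.Agent.Lib.Helper25.ACStmt

section aux

variable {X : Type u} [Group X] [Finite X]

omit [Finite X] in
/-- A subgroup containing all commutators is normal. -/
theorem normal_of_comm {N : Subgroup X} (hc : ∀ a b : X, a * b * a⁻¹ * b⁻¹ ∈ N) : N.Normal := by
  refine ⟨fun n hn g => ?_⟩
  have e : g * n * g⁻¹ = (g * n * g⁻¹ * n⁻¹) * n := by group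
  rw [e]
  exact N.mul_mem (hc g n) hn

/-- A subgroup of order `r` containing all commutators lies in every Sylow `r`-subgroup. -/
theorem le_sylow {r : ℕ} [Fact r.Prime] {N : Subgroup X} (hN : Nat.card ↥N = r)
    (hc : ∀ a b : X, a * b * a⁻¹ * b⁻¹ ∈ N) (P : Sylow r X) : N ≤ (P : Subgroup X) := by
  have hnorm : N.Normal := normal_of_comm hc
  have hNp : IsPGroup r ↥N := IsPGroup.of_card (n := 1) (by rw [hN, pow_one])
  have hsup : IsPGroup r ↥((P : Subgroup X) ⊔ N) := IsPGroup.to_sup_of_normal_right P.isPGroup' hNp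
  have h := P.is_maximal' hsup le_sup_left
  calc N ≤ (P : Subgroup X) ⊔ N := le_sup_right
    _ = (P : Subgroup X) := h

/-- So the Sylow `r`-subgroup is normal. -/
theorem sylow_normal {r : ℕ} [Fact r.Prime] {N : Subgroup X} (hN : Nat.card ↥N = r)
    (hc : ∀ a b : X, a * b * a⁻¹ * b⁻¹ ∈ N) (P : Sylow r X) : (P : Subgroup X).Normal := by
  have hNP := le_sylow hN hc P
  refine ⟨fun p hp g => ?_⟩
  have e : g * p * g⁻¹ = (g * p * g⁻¹ * p⁻¹) * p := by group
  rw [e]
  exact (P : Subgroup X).mul_mem (hNP (hc g p)) hp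

end aux

theorem main : SplitA.{u} := by
  intro X _ _ r _ N hN hc P
  have hr : r.Prime := Fact.out
  have hNP := le_sylow hN hc P
  have hnorm : (P : Subgroup X).Normal := sylow_normal hN hc P
  obtain ⟨H, hH⟩ := Subgroup.exists_right_complement'_of_coprime (N := (P : Subgroup X))
    P.card_coprime_index
  have hcard := hH.card_mul_card
  have hdisj : (P : Subgroup X) ⊓ H = ⊥ := hH.disjoint.eq_bot
  refine ⟨H, ?_, ?_, hcard, ?_⟩
  · -- `#H` is prime to `r`
    have hrP : r ∣ Nat.card ↥(P : Subgroup X) := by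
      have h0 : Nat.card ↥N ∣ Nat.card ↥(P : Subgroup X) := Subgroup.card_dvd_of_le hNP
      rwa [hN] at h0
    have hidx : (P : Subgroup X).index = Nat.card ↥H := by
      have h1 := Subgroup.card_mul_index (P : Subgroup X)
      have hpos : 0 < Nat.card ↥(P : Subgroup X) := Nat.card_pos
      exact Nat.eq_of_mul_eq_mul_left hpos (h1.trans hcard.symm)
    have hcop := P.card_coprime_index
    rw [hidx] at hcop
    have hnd : ¬ r ∣ Nat.card ↥H := by
      intro hd
      have := Nat.dvd_gcd hrP hd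
      rw [hcop] at this
      exact hr.one_lt.ne' (Nat.dvd_one.mp this)
    exact ((Nat.Prime.coprime_iff_not_dvd hr).2 hnd).symm
  · intro h hh k hk
    have hmem : h * k * h⁻¹ * k⁻¹ ∈ (P : Subgroup X) ⊓ H :=
      ⟨hNP (hc h k), H.mul_mem (H.mul_mem (H.mul_mem hh hk) (H.inv_mem hh)) (H.inv_mem hk)⟩
    rw [hdisj] at hmem
    have h1 : h * k * h⁻¹ * k⁻¹ = 1 := Subgroup.mem_bot.mp hmem
    have e : h * k = (h * k * h⁻¹ * k⁻¹) * (k * h) := by group
    rw [e, h1, one_mul]
  · intro x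
    have hsurj := (Subgroup.isComplement'_def.mp hH).2
    obtain ⟨⟨p, h⟩, hph⟩ := hsurj x
    exact ⟨(p : X), p.2, (h : X), h.2, hph.symm⟩

end Cfsg.Agent.Lib.Helper70.ACSPLITA
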