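import Mathlib
import Cfsg.Agent.Lib.Helper25.ACStmt
import Cfsg.Agent.Lib.Helper70.ACSPLITA

/-!
# S3912 / ABODD (from `SplitA`, `SplitB`, `PAb`)
-/

set_option autoImplicit false

universe u

namespace Cfsg.Agent.Lib.Helper70.ACABODD

open Cfsg.Agent.Lib.Helper25.ACStmt

theorem main (hA : SplitA.{u}) (hB : SplitB.{u}) (hP : PAb.{u}) : AbOdd.{u} := by
  intro X _ _ r _ hr2 N hN hord hc hrr a b
  obtain ⟨P⟩ : Nonempty (Sylow r X) := inferInstance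
  obtain ⟨H, hHcop, hHab, hcard, hfact⟩ := hA X r N hN hc P
  have hNP := Cfsg.Agent.Lib.Helper70.ACSPLITA.le_sylow hN hc P
  -- `H` centralizes `P`
  have hHP : ∀ h ∈ H, ∀ x ∈ (P : Subgroup X), h * x = x * h := by
    intro h hh x hx
    have hoh : Nat.Coprime (orderOf h) r := by
      have hd : orderOf h ∣ Nat.card ↥H := Subgroup.orderOf_dvd_natCard H hh
      exact Nat.Coprime.coprime_dvd_left hd hHcop
    exact hB X r N hN hord hc hrr P h hoh x hx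
  -- `P` is abelian
  have hPab : ∀ x y : ↥(P : Subgroup X), x * y = y * x := by
    apply hP ↥(P : Subgroup X) r hr2 P.isPGroup' (N.subgroupOf (P : Subgroup X))
    · rw [Nat.card_congr (Subgroup.subgroupOfEquivOfLe hNP).toEquiv]; exact hN
    · intro x hx
      rw [Subgroup.mem_subgroupOf]
      apply hord
      rw [Subgroup.orderOf_coe]; exact hx
    · intro x y
      rw [Subgroup.mem_subgroupOf]
      exact hc x y
  obtain ⟨p₁, hp₁, h₁, hh₁, rfl⟩ := hfact a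
  obtain ⟨p₂, hp₂, h₂, hh₂, rfl⟩ := hfact b
  have e1 : h₁ * p₂ = p₂ * h₁ := hHP h₁ hh₁ p₂ hp₂
  have e2 : h₂ * p₁ = p₁ * h₂ := hHP h₂ hh₂ p₁ hp₁
  have e3 : p₁ * p₂ = p₂ * p₁ := congrArg Subtype.val (hPab ⟨p₁, hp₁⟩ ⟨p₂, hp₂⟩)
  have e4 : h₁ * h₂ = h₂ * h₁ := hHab h₁ hh₁ h₂ hh₂
  calc p₁ * h₁ * (p₂ * h₂) = p₁ * (h₁ * p₂) * h₂ := by group
    _ = p₁ * (p₂ * h₁) * h₂ := by rw [e1]
    _ = (p₁ * p₂) * (h₁ * h₂) := by group
    _ = (p₂ * p₁) * (h₂ * h₁) := by rw [e3, e4]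
    _ = p₂ * (p₁ * h₂) * h₁ := by group
    _ = p₂ * (h₂ * p₁) * h₁ := by rw [e2]
    _ = p₂ * h₂ * (p₁ * h₁) := by group

end Cfsg.Agent.Lib.Helper70.ACABODD
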