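import Mathlib
import Cfsg.Agent.Lib.Helper26.J3Stmt

/-! S3366 piece T2: an involution `t` not centralizing `R = O_3(X)` inverts `R / Z`. -/

set_option autoImplicit false
universe u

namespace Cfsg.Agent.Lib.Helper70.J3T2

open Cfsg.Agent.Lib.Helper26.J3Stmt

theorem mem_cent_single {X : Type u} [Group X] (a g : X) :
    g ∈ Subgroup.centralizer ({a} : Set X) ↔ a * g = g * a := by
  rw [Subgroup.mem_centralizer_iff]
  constructor
  · intro h; exact h a rfl
  · intro h b hb; rw [Set.mem_singleton_iff] at hb; subst hb; exact h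

theorem main : Cfsg.Agent.Lib.Helper26.J3Stmt.T2.{u} := by
  intro X _ hH hZ t ht hnc
  obtain ⟨hfin, -, hR27, hexp, -, -, -⟩ := hH
  obtain ⟨hZ3, hZR, hcomm, hcen, hZc⟩ := hZ
  have := hfin
  have hRn : (R X).Normal := inferInstance
  have htinv : t⁻¹ = t := inv_eq_of_mul_eq_one_left ht
  have hconj : ∀ r ∈ R X, t * r * t⁻¹ ∈ R X := fun r hr => hRn.conj_mem r hr t
  have hsq1 : ∀ a ∈ R X, a * a = 1 → a = 1 := by
    intro a ha h
    have h3 := hexp a ha
    have e : a ^ 3 = a * a * a := by rw [pow_succ, pow_two]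
    rw [e, h, one_mul] at h3; exact h3
  have htt : ∀ x : X, t * (t * x * t⁻¹) * t⁻¹ = x := by
    intro x
    rw [htinv]
    calc t * (t * x * t) * t = (t * t) * x * (t * t) := by simp only [mul_assoc]
      _ = x := by rw [ht]; simp
  -- (A)
  have hA : ∀ r ∈ R X, ∀ ζ ∈ Zc X, t * r * t⁻¹ = r * ζ → ζ = 1 := by
    intro r hr ζ hζ h
    have e1 : t⁻¹ * ζ = ζ * t⁻¹ := hZc ζ hζ t⁻¹
    have e2 : r = r * (ζ * ζ) := by
      calc r = t * (t * r * t⁻¹) * t⁻¹ := (htt r).symm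
        _ = t * (r * ζ) * t⁻¹ := by rw [h]
        _ = t * r * (ζ * t⁻¹) := by simp only [mul_assoc]
        _ = t * r * (t⁻¹ * ζ) := by rw [e1]
        _ = (t * r * t⁻¹) * ζ := by simp only [mul_assoc]
        _ = r * (ζ * ζ) := by rw [h, mul_assoc]
    have e3 : ζ * ζ = 1 := by
      have := e2.symm
      exact mul_eq_left.mp this
    exact hsq1 ζ (hZR hζ) e3
  -- (B)
  have hB : ∀ r ∈ R X, t * r = r * t → r ∈ Zc X := by
    intro r hr htr
    by_contra hrZ
    apply hnc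
    intro s hs
    set C : Subgroup X := Subgroup.centralizer {r} ⊓ R X with hC
    set H : Subgroup X := Zc X ⊔ Subgroup.zpowers r with hHdef
    have hHC : H ≤ C := by
      refine sup_le ?_ ?_
      · intro z hz
        refine Subgroup.mem_inf.2 ⟨?_, hZR hz⟩
        rw [mem_cent_single]
        exact hZc z hz r
      · rw [Subgroup.zpowers_le]
        refine Subgroup.mem_inf.2 ⟨?_, hr⟩
        rw [mem_cent_single]
    have hCR : C ≤ R X := inf_le_right
    have hCne : C ≠ R X := by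
      intro hCe
      apply hrZ
      apply hcen r hr
      intro s' hs'
      have h1 : s' ∈ C := hCe ▸ hs'
      have h2 := (Subgroup.mem_inf.1 h1).1
      rw [mem_cent_single] at h2
      exact h2
    have hCcard : Nat.card C ∣ 9 := by
      have hd : Nat.card C ∣ 3 ^ 3 := by
        have := Subgroup.card_dvd_of_le hCR
        rw [hR27] at this; exact this
      obtain ⟨k, hk, hk'⟩ := (Nat.dvd_prime_pow Nat.prime_three).1 hd
      have hk3 : k ≠ 3 := by
        rintro rfl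
        apply hCne
        apply Subgroup.eq_of_le_of_card_ge hCR
        rw [hR27, hk']; norm_num
      rw [hk']
      have : k ≤ 2 := by omega
      exact pow_dvd_pow 3 this
    have hZH : Nat.card (Zc X) ∣ Nat.card H := Subgroup.card_dvd_of_le le_sup_left
    have hHCd : Nat.card H ∣ Nat.card C := Subgroup.card_dvd_of_le hHC
    have hHgt : 3 < Nat.card H := by
      by_contra hle
      rw [not_lt] at hle
      have hh : Zc X = H := Subgroup.eq_of_le_of_card_ge le_sup_left (by rw [hZ3]; exact hle)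
      apply hrZ
      rw [hh]
      exact Subgroup.mem_sup_right (Subgroup.mem_zpowers r)
    have hH9 : Nat.card H = 9 := by
      have h9 : Nat.card H ∣ 9 := hHCd.trans hCcard
      have hle : Nat.card H ≤ 9 := Nat.le_of_dvd (by norm_num) h9
      rw [hZ3] at hZH
      interval_cases (Nat.card H) <;> omega
    have hHC' : H = C := by
      apply Subgroup.eq_of_le_of_card_ge hHC
      rw [hH9]
      exact Nat.le_of_dvd (by norm_num) hCcard
    have hHt : H ≤ Subgroup.centralizer {t} := by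
      refine sup_le ?_ ?_
      · intro z hz; rw [mem_cent_single]; exact hZc z hz t
      · rw [Subgroup.zpowers_le, mem_cent_single]; exact htr
    have hsR : s⁻¹ ∈ R X := inv_mem hs
    have haR : t * s * t⁻¹ * s⁻¹ ∈ R X := mul_mem (hconj s hs) hsR
    have hζ : r * s * r⁻¹ * s⁻¹ ∈ Zc X := hcomm r hr s hs
    have hac : t * s * t⁻¹ * s⁻¹ ∈ Subgroup.centralizer {r} := by
      rw [mem_cent_single]
      have c1 : SemiconjBy r t t := htr.symm
      have c2 : SemiconjBy r s (r * s * r⁻¹ * s⁻¹ * s) := by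
        unfold SemiconjBy; group
      have c3 := ((c1.mul_right c2).mul_right c1.inv_right).mul_right c2.inv_right
      have c4 : t * (r * s * r⁻¹ * s⁻¹ * s) * t⁻¹ * (r * s * r⁻¹ * s⁻¹ * s)⁻¹ = t * s * t⁻¹ * s⁻¹ := by
        generalize r * s * r⁻¹ * s⁻¹ = ζ at hζ
        have e1 : t * ζ = ζ * t := hZc ζ hζ t
        have e2 : ∀ x : X, x * ζ = ζ * x := hZc ζ hζ
        calc t * (ζ * s) * t⁻¹ * (ζ * s)⁻¹ = (t * ζ) * (s * t⁻¹ * s⁻¹) * ζ⁻¹ := by group
          _ = ζ * (t * s * t⁻¹ * s⁻¹) * ζ⁻¹ := by rw [e1]; group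
          _ = (t * s * t⁻¹ * s⁻¹) * ζ * ζ⁻¹ := by rw [← e2]
          _ = t * s * t⁻¹ * s⁻¹ := by group
      rw [c4] at c3
      exact c3
    have hat : t * s * t⁻¹ * s⁻¹ ∈ Subgroup.centralizer {t} := hHt (hHC' ▸ Subgroup.mem_inf.2 ⟨hac, haR⟩)
    rw [mem_cent_single] at hat
    -- `a` is both fixed and inverted by `t`
    have hinv : (t * s * t⁻¹ * s⁻¹) * (t * s * t⁻¹ * s⁻¹) = 1 := by
      have e1 : t * (t * s * t⁻¹ * s⁻¹) = s * t⁻¹ * s⁻¹ := by
        calc t * (t * s * t⁻¹ * s⁻¹) = (t * t) * s * t⁻¹ * s⁻¹ := by simp only [mul_assoc]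
          _ = s * t⁻¹ * s⁻¹ := by rw [ht, one_mul]
      calc (t * s * t⁻¹ * s⁻¹) * (t * s * t⁻¹ * s⁻¹)
          = t * s * t⁻¹ * s⁻¹ * (t * s * t⁻¹ * s⁻¹) * t * t⁻¹ := by group
        _ = t * s * t⁻¹ * s⁻¹ * (t * (t * s * t⁻¹ * s⁻¹)) * t⁻¹ := by rw [hat]; simp only [mul_assoc]
        _ = t * s * t⁻¹ * s⁻¹ * (s * t⁻¹ * s⁻¹) * t⁻¹ := by rw [e1]
        _ = t * s * (t⁻¹ * t⁻¹) * s⁻¹ * t⁻¹ := by group
        _ = 1 := by rw [htinv, ht]; simp [ht]
    have ha1 := hsq1 _ haR hinv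
    calc t * s = (t * s * t⁻¹ * s⁻¹) * s * t := by rw [htinv]; simp [mul_assoc, ht]
      _ = s * t := by rw [ha1, one_mul]
  -- (C)
  intro r hr
  have hr' : t * r * t⁻¹ ∈ R X := hconj r hr
  have hw : r * (t * r * t⁻¹) ∈ R X := mul_mem hr hr'
  apply hB _ hw
  have hζ : (t * r * t⁻¹)⁻¹ * r⁻¹ * (t * r * t⁻¹)⁻¹⁻¹ * r⁻¹⁻¹ ∈ Zc X :=
    hcomm _ (inv_mem hr') _ (inv_mem hr)
  have e : t * (r * (t * r * t⁻¹)) * t⁻¹
      = r * (t * r * t⁻¹) * ((t * r * t⁻¹)⁻¹ * r⁻¹ * (t * r * t⁻¹)⁻¹⁻¹ * r⁻¹⁻¹) := by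
    calc t * (r * (t * r * t⁻¹)) * t⁻¹ = (t * r * t⁻¹) * (t * (t * r * t⁻¹) * t⁻¹) := by group
      _ = (t * r * t⁻¹) * r := by rw [htt]
      _ = _ := by group
  have h1 := hA _ hw _ hζ e
  rw [h1, mul_one] at e
  calc t * (r * (t * r * t⁻¹)) = t * (r * (t * r * t⁻¹)) * t⁻¹ * t := by group
    _ = r * (t * r * t⁻¹) * t := by rw [e]
end Cfsg.Agent.Lib.Helper70.J3T2
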