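import Mathlib
import Cfsg.Agent.Lib.Helper26.J3Stmt
import Cfsg.Agent.Lib.Helper70.J3T2

/-! S3366 piece DCUBE: an element `d` of `C(t)` outside `R` with `d ^ 3 ∈ R` has `d ^ 3 = 1`. -/

set_option autoImplicit false
universe u

namespace Cfsg.Agent.Lib.Helper70.J3DCUBE

open Cfsg.Agent.Lib.Helper26.J3Stmt
open Cfsg.Agent.Lib.Helper70.J3T2

/-- For `r ∈ R \ Z`, anything commuting with `r` (and `Z`) commutes with `C_R(r) = ⟨r⟩ Z`. -/
theorem cent_le {X : Type u} [Group X] (hH : Hyp X) (hZ : ZFacts X) (r : X) (hr : r ∈ R X)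
    (hrZ : r ∉ Zc X) (y : X) (hy : y * r = r * y) :
    ∀ a ∈ R X, r * a = a * r → y * a = a * y := by
  obtain ⟨hfin, -, hR27, hexp, -, -, -⟩ := hH
  obtain ⟨hZ3, hZR, hcomm, hcen, hZc⟩ := hZ
  have := hfin
  intro a haR har
  set C : Subgroup X := Subgroup.centralizer {r} ⊓ R X with hC
  set H : Subgroup X := Zc X ⊔ Subgroup.zpowers r with hHdef
  have hHC : H ≤ C := by
    refine sup_le ?_ ?_
    · intro z hz
      refine Subgroup.mem_inf.2 ⟨?_, hZR hz⟩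
      rw [mem_cent_single]
      exact hZc z hz r
    · rw [Subgroup.zpowers_le]
      refine Subgroup.mem_inf.2 ⟨?_, hr⟩
      rw [mem_cent_single]
  have hCR : C ≤ R X := inf_le_right
  have hCne : C ≠ R X := by
    intro hCe
    apply hrZ
    apply hcen r hr
    intro s' hs'
    have h1 : s' ∈ C := hCe ▸ hs'
    have h2 := (Subgroup.mem_inf.1 h1).1
    rw [mem_cent_single] at h2
    exact h2
  have hCcard : Nat.card C ∣ 9 := by
    have hd : Nat.card C ∣ 3 ^ 3 := by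
      have := Subgroup.card_dvd_of_le hCR
      rw [hR27] at this; exact this
    obtain ⟨k, hk, hk'⟩ := (Nat.dvd_prime_pow Nat.prime_three).1 hd
    have hk3 : k ≠ 3 := by
      rintro rfl
      apply hCne
      apply Subgroup.eq_of_le_of_card_ge hCR
      rw [hR27, hk']; norm_num
    rw [hk']
    have : k ≤ 2 := by omega
    exact pow_dvd_pow 3 this
  have hZH : Nat.card (Zc X) ∣ Nat.card H := Subgroup.card_dvd_of_le le_sup_left
  have hHCd : Nat.card H ∣ Nat.card C := Subgroup.card_dvd_of_le hHC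
  have hHgt : 3 < Nat.card H := by
    by_contra hle
    rw [not_lt] at hle
    have hh : Zc X = H := Subgroup.eq_of_le_of_card_ge le_sup_left (by rw [hZ3]; exact hle)
    apply hrZ
    rw [hh]
    exact Subgroup.mem_sup_right (Subgroup.mem_zpowers r)
  have hH9 : Nat.card H = 9 := by
    have h9 : Nat.card H ∣ 9 := hHCd.trans hCcard
    have hle : Nat.card H ≤ 9 := Nat.le_of_dvd (by norm_num) h9
    rw [hZ3] at hZH
    interval_cases (Nat.card H) <;> omega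
  have hHC' : H = C := by
    apply Subgroup.eq_of_le_of_card_ge hHC
    rw [hH9]
    exact Nat.le_of_dvd (by norm_num) hCcard
  have hHy : H ≤ Subgroup.centralizer {y} := by
    refine sup_le ?_ ?_
    · intro z hz; rw [mem_cent_single]; exact hZc z hz y
    · rw [Subgroup.zpowers_le, mem_cent_single]; exact hy
  have haC : a ∈ C := Subgroup.mem_inf.2 ⟨(mem_cent_single r a).2 har, haR⟩
  have := hHy (hHC' ▸ haC)
  rw [mem_cent_single] at this
  exact this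

theorem core {X : Type u} [Group X] (hH : Hyp X) (hZ : ZFacts X) (t : X) (hT : TProp X t)
    (f : X) (hft : f * t = t * f) (E : Subgroup X) (hEc : IsMulCommutative E)
    (hE3 : ∀ a ∈ E, a ^ 3 = 1) (hZE : Zc X ≤ E) (hA9 : Nat.card (E ⊓ R X : Subgroup X) = 9)
    (r : X) (hr : r ∈ R X) (he : r * f ∈ E) : f ^ 3 = 1 := by
  have hH' := hH
  have hZ' := hZ
  obtain ⟨hfin, -, hR27, hexp, -, -, -⟩ := hH
  obtain ⟨hZ3, hZR, hcomm, hcen, hZc⟩ := hZ
  obtain ⟨ht, htR, htx, hinvt⟩ := hT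
  have := hfin
  have htinv : t⁻¹ = t := inv_eq_of_mul_eq_one_left ht
  have hEcomm : ∀ x ∈ E, ∀ y ∈ E, x * y = y * x := by
    intro x hx y hy
    have := hEc.is_comm.comm (⟨x, hx⟩ : E) ⟨y, hy⟩
    exact congrArg Subtype.val this
  have hsq1 : ∀ a ∈ R X, a * a = 1 → a = 1 := by
    intro a ha h
    have h3 := hexp a ha
    have e : a ^ 3 = a * a * a := by rw [pow_succ, pow_two]
    rw [e, h, one_mul] at h3; exact h3
  -- pick `a ∈ A \ Z`
  obtain ⟨a, haA, haZ⟩ : ∃ a ∈ (E ⊓ R X : Subgroup X), a ∉ Zc X := by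
    by_contra hcon
    push Not at hcon
    have hle : (E ⊓ R X : Subgroup X) ≤ Zc X := hcon
    have := Subgroup.card_le_of_le hle
    omega
  have haE : a ∈ E := (Subgroup.mem_inf.1 haA).1
  have haR : a ∈ R X := (Subgroup.mem_inf.1 haA).2
  have hζ0 : a * (t * a * t⁻¹) ∈ Zc X := hinvt a haR
  generalize hζ0def : a * (t * a * t⁻¹) = ζ0 at hζ0
  have hta : t * a * t⁻¹ = a⁻¹ * ζ0 := by rw [← hζ0def]; group
  have hζ0c : ∀ x : X, x * ζ0 = ζ0 * x := hZc ζ0 hζ0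
  have hζ03 : ζ0 ^ 3 = 1 := hexp ζ0 (hZR hζ0)
  -- `a' = a * ζ0`
  have ha'E : a * ζ0 ∈ E := mul_mem haE (hZE hζ0)
  have ha'R : a * ζ0 ∈ R X := mul_mem haR (hZR hζ0)
  have ha'Z : a * ζ0 ∉ Zc X := by
    intro h
    apply haZ
    have := mul_mem h (inv_mem hζ0)
    simpa using this
  have hta' : t * (a * ζ0) * t⁻¹ = (a * ζ0)⁻¹ := by
    calc t * (a * ζ0) * t⁻¹ = t * a * (ζ0 * t⁻¹) := by simp only [mul_assoc]
      _ = t * a * (t⁻¹ * ζ0) := by rw [hζ0c]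
      _ = (t * a * t⁻¹) * ζ0 := by simp only [mul_assoc]
      _ = a⁻¹ * ζ0 * ζ0 := by rw [hta]
      _ = a⁻¹ * (ζ0 ^ 3 * ζ0⁻¹) := by simp [pow_succ, mul_assoc]
      _ = a⁻¹ * ζ0⁻¹ := by rw [hζ03, one_mul]
      _ = ζ0⁻¹ * a⁻¹ := by
          have := hζ0c a⁻¹
          have h2 : a⁻¹ * ζ0⁻¹ = ζ0⁻¹ * (ζ0 * a⁻¹) * ζ0⁻¹ := by group
          rw [h2, ← this]; group
      _ = (a * ζ0)⁻¹ := by rw [mul_inv_rev]
  generalize a * ζ0 = a' at ha'E ha'R ha'Z hta'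
  -- `f a' f⁻¹ = a' ζ`
  have hea : (r * f) * a' = a' * (r * f) := hEcomm _ he _ ha'E
  have hζ : a'⁻¹ * r⁻¹ * a'⁻¹⁻¹ * r⁻¹⁻¹ ∈ Zc X := hcomm _ (inv_mem ha'R) _ (inv_mem hr)
  have hfa : f * a' * f⁻¹ = a' * (a'⁻¹ * r⁻¹ * a'⁻¹⁻¹ * r⁻¹⁻¹) := by
    calc f * a' * f⁻¹ = r⁻¹ * ((r * f) * a') * f⁻¹ := by group
      _ = r⁻¹ * (a' * (r * f)) * f⁻¹ := by rw [hea]
      _ = _ := by group
  generalize a'⁻¹ * r⁻¹ * a'⁻¹⁻¹ * r⁻¹⁻¹ = ζ at hζ hfa
  have hζc : ∀ x : X, x * ζ = ζ * x := hZc ζ hζ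
  have hζ1 : ζ = 1 := by
    apply hsq1 ζ (hZR hζ)
    have hft' : t * f⁻¹ = f⁻¹ * t := by
      have : f⁻¹ * (f * t) * f⁻¹ = f⁻¹ * (t * f) * f⁻¹ := by rw [hft]
      simpa [mul_assoc] using this
    have e1 : t * (f * a' * f⁻¹) * t⁻¹ = (f * a' * f⁻¹)⁻¹ := by
      calc t * (f * a' * f⁻¹) * t⁻¹ = (t * f) * a' * (f⁻¹ * t⁻¹) := by simp only [mul_assoc]
        _ = (f * t) * a' * (f⁻¹ * t⁻¹) := by rw [hft]
        _ = f * t * a' * (t * f⁻¹) := by
            rw [htinv, hft']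
        _ = f * (t * a' * t⁻¹) * f⁻¹ := by rw [htinv]; simp only [mul_assoc]
        _ = f * a'⁻¹ * f⁻¹ := by rw [hta']
        _ = (f * a' * f⁻¹)⁻¹ := by group
    rw [hfa] at e1
    have e2 : t * (a' * ζ) * t⁻¹ = a'⁻¹ * ζ := by
      calc t * (a' * ζ) * t⁻¹ = t * a' * (ζ * t⁻¹) := by simp only [mul_assoc]
        _ = t * a' * (t⁻¹ * ζ) := by rw [hζc]
        _ = (t * a' * t⁻¹) * ζ := by simp only [mul_assoc]
        _ = a'⁻¹ * ζ := by rw [hta']
    rw [e2] at e1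
    have e3 : (a' * ζ)⁻¹ = a'⁻¹ * ζ⁻¹ := by
      rw [mul_inv_rev]
      have := hζc a'⁻¹
      have h2 : ζ⁻¹ * a'⁻¹ = ζ⁻¹ * (a'⁻¹ * ζ) * ζ⁻¹ := by group
      rw [h2, this]; group
    rw [e3] at e1
    have e4 : ζ = ζ⁻¹ := mul_left_cancel e1
    calc ζ * ζ = ζ * ζ⁻¹ := by rw [← e4]
      _ = 1 := mul_inv_cancel ζ
  rw [hζ1, mul_one] at hfa
  have hfa' : f * a' = a' * f := by
    calc f * a' = f * a' * f⁻¹ * f := by group
      _ = a' * f := by rw [hfa]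
  have hra' : a' * r = r * a' := by
    have : r * a' * f = a' * r * f := by
      calc r * a' * f = r * (a' * f) := by rw [mul_assoc]
        _ = r * (f * a') := by rw [hfa']
        _ = (r * f) * a' := by rw [mul_assoc]
        _ = a' * (r * f) := hea
        _ = a' * r * f := by rw [mul_assoc]
    exact (mul_right_cancel this).symm
  have hfr : f * r = r * f := cent_le hH' hZ' a' ha'R ha'Z f hfa' r hr hra'
  have he3 := hE3 _ he
  have hcm : Commute r f := hfr.symm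
  rw [hcm.mul_pow, hexp r hr, one_mul] at he3
  exact he3

theorem main : Cfsg.Agent.Lib.Helper26.J3Stmt.DCUBE.{u} := by
  intro hEINT hECONJ X _ hH hZ t hT d hdt hdR hd3
  obtain ⟨E, hEc, hE3, hE27, r, hr, he⟩ := hECONJ X hH d hdR hd3
  obtain ⟨hZE, hA9⟩ := hEINT X hH hZ E hEc hE27
  rcases he with he | he
  · exact core hH hZ t hT d hdt E hEc hE3 hZE hA9 r hr he
  · have hdt' : d⁻¹ * t = t * d⁻¹ := by
      have : d⁻¹ * (d * t) * d⁻¹ = d⁻¹ * (t * d) * d⁻¹ := by rw [hdt]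
      simpa [mul_assoc] using this.symm
    have := core hH hZ t hT d⁻¹ hdt' E hEc hE3 hZE hA9 r hr he
    rw [inv_pow, inv_eq_one] at this
    exact this

end Cfsg.Agent.Lib.Helper70.J3DCUBE
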