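import Mathlib
import Cfsg.Agent.Lib.Helper70.FrattiniQuot

/-! The subgroup generated by the squares and its index. -/

set_option autoImplicit false
universe u

namespace Cfsg.Agent.Lib.Helper70.SqIdx
open Subgroup

/-- the subgroup generated by the squares -/
def sq (X : Type*) [Group X] : Subgroup X := closure {y : X | ∃ x : X, y = x * x}

theorem sq_mem {X : Type*} [Group X] (x : X) : x * x ∈ sq X := subset_closure ⟨x, rfl⟩

theorem map_sq_le {X Y : Type*} [Group X] [Group Y] (f : X →* Y) : (sq X).map f ≤ sq Y := by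
  unfold sq
  rw [MonoidHom.map_closure, closure_le]
  rintro _ ⟨y, ⟨x, rfl⟩, rfl⟩
  rw [map_mul]
  exact subset_closure ⟨f x, rfl⟩

theorem map_sq {X Y : Type*} [Group X] [Group Y] (f : X →* Y) (hf : Function.Surjective f) :
    (sq X).map f = sq Y := by
  apply le_antisymm (map_sq_le f)
  intro y hy
  unfold sq at hy
  refine closure_induction (p := fun y _ => y ∈ (sq X).map f) ?_ ?_ ?_ ?_ hy
  · rintro _ ⟨y, rfl⟩
    obtain ⟨x, rfl⟩ := hf y
    exact ⟨x * x, sq_mem x, by rw [map_mul]⟩
  · exact one_mem _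
  · intro a b _ _ ha hb
    exact mul_mem ha hb
  · intro a _ ha
    exact inv_mem ha

instance sq_normal (X : Type*) [Group X] : (sq X).Normal := by
  constructor
  intro n hn g
  have h := map_sq_le (MulAut.conj g).toMonoidHom (X := X)
  exact h ⟨n, hn, by simp [MulAut.conj_apply]⟩

/-- the index of the subgroup generated by the squares -/
noncomputable def sqIdx (X : Type*) [Group X] : ℕ := (sq X).index

theorem sqIdx_le_mul {X Y : Type*} [Group X] [Finite X] [Group Y] (f : X →* Y)
    (hf : Function.Surjective f) : sqIdx X ≤ sqIdx Y * sqIdx f.ker := by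
  unfold sqIdx
  have h1 : (sq X).relIndex (sq X ⊔ f.ker) * (sq X ⊔ f.ker).index = (sq X).index :=
    relIndex_mul_index le_sup_left
  have h2 : (sq X ⊔ f.ker).index = (sq Y).index := by
    rw [← map_sq f hf, ← Subgroup.comap_map_eq, Subgroup.index_comap_of_surjective _ hf]
  have h3 : (sq X).relIndex (sq X ⊔ f.ker) = (sq X).relIndex f.ker := relIndex_sup_left _ _
  have h4 : (sq X).relIndex f.ker ≤ (sq f.ker).index := by
    have hle : sq f.ker ≤ (sq X).subgroupOf f.ker := by
      unfold sq
      rw [closure_le]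
      rintro _ ⟨x, rfl⟩
      rw [SetLike.mem_coe, mem_subgroupOf]
      exact subset_closure ⟨x, rfl⟩
    exact Nat.le_of_dvd (Nat.pos_of_ne_zero Subgroup.index_ne_zero_of_finite)
      (Subgroup.index_dvd_of_le hle)
  rw [← h1, h2, h3, mul_comm]
  exact Nat.mul_le_mul_left _ h4

theorem sqIdx_le_of_injective {X Y : Type*} [Group X] [Finite X] [Group Y] (f : X →* Y)
    (hf : Function.Injective f) : sqIdx X ≤ sqIdx f.range := by
  have h := sqIdx_le_mul f.rangeRestrict f.rangeRestrict_surjective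
  have hk : sqIdx f.rangeRestrict.ker = 1 := by
    unfold sqIdx
    have hs : Subsingleton f.rangeRestrict.ker := by
      rw [MonoidHom.ker_rangeRestrict, (MonoidHom.ker_eq_bot_iff f).mpr hf]
      infer_instance
    rw [Subgroup.index_eq_one]
    exact Subsingleton.elim _ _
  rw [hk, mul_one] at h
  exact h

theorem sqIdx_dvd_card (X : Type*) [Group X] : sqIdx X ∣ Nat.card X :=
  Subgroup.index_dvd_card _

theorem sqIdx_le_card (X : Type*) [Group X] [Finite X] : sqIdx X ≤ Nat.card X :=
  Nat.le_of_dvd Nat.card_pos (sqIdx_dvd_card X)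

theorem sqIdx_mul_card (X : Type*) [Group X] : Nat.card (sq X) * sqIdx X = Nat.card X :=
  Subgroup.card_mul_index _

/-- a large cyclic subgroup bounds the index of the squares -/
theorem sqIdx_le_of_orderOf {X : Type*} [Group X] [Finite X] (a : X) (k : ℕ)
    (h : Nat.card X ≤ k * orderOf a) : sqIdx X ≤ 2 * k := by
  have h1 := sqIdx_mul_card X
  have h2 : orderOf (a * a) ≤ Nat.card (sq X) := by
    rw [← Nat.card_zpowers]
    exact Subgroup.card_le_of_le (zpowers_le.mpr (sq_mem a))
  have h3 : orderOf a ≤ 2 * orderOf (a * a) := by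
    rw [← pow_two, orderOf_pow' a (by norm_num : (2 : ℕ) ≠ 0)]
    have hg : Nat.gcd (orderOf a) 2 ∣ orderOf a := Nat.gcd_dvd_left _ _
    have hg2 : Nat.gcd (orderOf a) 2 ≤ 2 := Nat.le_of_dvd (by norm_num) (Nat.gcd_dvd_right _ _)
    obtain ⟨c, hc⟩ := hg
    have hpos : 0 < Nat.gcd (orderOf a) 2 := Nat.gcd_pos_of_pos_right _ (by norm_num)
    rw [Nat.div_eq_of_eq_mul_right hpos hc]
    calc orderOf a = Nat.gcd (orderOf a) 2 * c := hc
      _ ≤ 2 * c := Nat.mul_le_mul_right _ hg2
  have hpos : 0 < Nat.card (sq X) := Nat.card_pos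
  by_contra hlt
  push Not at hlt
  have h4 : Nat.card (sq X) * (2 * k + 1) ≤ Nat.card (sq X) * sqIdx X :=
    Nat.mul_le_mul_left _ hlt
  have h5 : k * orderOf a ≤ k * (2 * Nat.card (sq X)) :=
    Nat.mul_le_mul_left _ (h3.trans (Nat.mul_le_mul_left _ h2))
  nlinarith

theorem sqIdx_cyclic {X : Type*} [Group X] [Finite X] (h : IsCyclic X) : sqIdx X ≤ 2 := by
  obtain ⟨g, hg⟩ := h.exists_generator
  have h1 : Nat.card X ≤ 1 * orderOf g := by
    rw [one_mul, ← Nat.card_zpowers]
    apply le_of_eq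
    have : zpowers g = ⊤ := eq_top_iff.mpr (fun x _ => hg x)
    rw [this, Subgroup.card_top]
  have := sqIdx_le_of_orderOf g 1 h1
  omega

/-- a noncommutative group of order at most `8` -/
theorem sqIdx_le_four {X : Type*} [Group X] [Finite X] (hc : Nat.card X ≤ 8)
    (hna : ∃ a b : X, a * b ≠ b * a) : sqIdx X ≤ 4 := by
  have h1 := sqIdx_mul_card X
  have h2 : 2 ≤ Nat.card (sq X) := by
    by_contra hlt
    have hone : Nat.card (sq X) = 1 := by
      have : 0 < Nat.card (sq X) := Nat.card_pos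
      omega
    have hbot : sq X = ⊥ := Subgroup.card_eq_one.mp hone
    obtain ⟨a, b, hab⟩ := hna
    apply hab
    have hsq : ∀ x : X, x * x = 1 := by
      intro x
      have := sq_mem x
      rw [hbot, Subgroup.mem_bot] at this
      exact this
    have ha : a⁻¹ = a := inv_eq_of_mul_eq_one_left (hsq a)
    have hb : b⁻¹ = b := inv_eq_of_mul_eq_one_left (hsq b)
    have hab' : (a * b)⁻¹ = a * b := inv_eq_of_mul_eq_one_left (hsq (a * b))
    rw [← hab', mul_inv_rev, ha, hb]
  by_contra hlt
  push Not at hlt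
  have h4 : 2 * 5 ≤ Nat.card (sq X) * sqIdx X := Nat.mul_le_mul h2 hlt
  omega

theorem frattini_index_le {P : Type*} [Group P] [Finite P] (hP : IsPGroup 2 P) :
    (frattini P).index ≤ sqIdx P := by
  have : Fact (Nat.Prime 2) := ⟨Nat.prime_two⟩
  have hle : sq P ≤ frattini P := by
    unfold sq
    rw [closure_le]
    rintro _ ⟨x, rfl⟩
    have := Cfsg.Agent.Lib.Helper70.FrattiniQuot.pow_mem_frattini hP x
    rw [pow_two] at this
    exact this
  exact Nat.le_of_dvd (Nat.pos_of_ne_zero Subgroup.index_ne_zero_of_finite)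
    (Subgroup.index_dvd_of_le hle)

end Cfsg.Agent.Lib.Helper70.SqIdx
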